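import Mathlib
import Cfsg.Agent.Lib.Helper18.SLMDefs
import Cfsg.Agent.Lib.Helper30.UETRANS

set_option autoImplicit false

namespace Cfsg.Agent.Lib.Helper18.SLM

open Matrix

universe u

variable {F : Type u} [Field F] [Fintype F]

theorem wt_finrank_eq {V : Type*} [AddCommGroup V] [Module ℂ V] (ψ : AddChar F ℂ) {k : ℕ}
    (hk : 2 ≤ k) (ρ : Representation ℂ (Matrix.SpecialLinearGroup (Fin (k + 1)) F) V)
    (hmap : ∀ (g : Matrix.SpecialLinearGroup (Fin k) F) (l : Fin k → F), ∀ v ∈ wt ψ ρ l,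
      ρ (lev g) v ∈ wt ψ ρ ((g : Matrix (Fin k) (Fin k) F) *ᵥ l))
    (l l' : Fin k → F) (hl : l ≠ 0) (hl' : l' ≠ 0) :
    Module.finrank ℂ (wt ψ ρ l) = Module.finrank ℂ (wt ψ ρ l') := by
  obtain ⟨g, hg⟩ := Cfsg.Agent.Lib.Helper18.UE.sl_trans hk l l' hl hl'
  have hg' : ((g⁻¹ : Matrix.SpecialLinearGroup (Fin k) F) : Matrix (Fin k) (Fin k) F) *ᵥ l' = l := by
    rw [← hg, Matrix.mulVec_mulVec, ← Matrix.SpecialLinearGroup.coe_mul, inv_mul_cancel,
      Matrix.SpecialLinearGroup.coe_one, Matrix.one_mulVec]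
  have h1 : ∀ v ∈ wt ψ ρ l, ρ (lev g) v ∈ wt ψ ρ l' := by
    intro v hv
    have := hmap g l v hv
    rwa [hg] at this
  have h2 : ∀ v ∈ wt ψ ρ l', ρ (lev g⁻¹) v ∈ wt ψ ρ l := by
    intro v hv
    have := hmap g⁻¹ l' v hv
    rwa [hg'] at this
  have e12 : ∀ v : V, ρ (lev g⁻¹) (ρ (lev g) v) = v := by
    intro v
    have : ρ (lev g⁻¹) * ρ (lev g) = 1 := by
      rw [← map_mul, ← map_mul, inv_mul_cancel, map_one, map_one]
    exact congrArg (fun f : V →ₗ[ℂ] V => f v) this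
  have e21 : ∀ v : V, ρ (lev g) (ρ (lev g⁻¹) v) = v := by
    intro v
    have : ρ (lev g) * ρ (lev g⁻¹) = 1 := by
      rw [← map_mul, ← map_mul, mul_inv_cancel, map_one, map_one]
    exact congrArg (fun f : V →ₗ[ℂ] V => f v) this
  let e : ↥(wt ψ ρ l) ≃ₗ[ℂ] ↥(wt ψ ρ l') :=
    LinearEquiv.ofLinear ((ρ (lev g)).restrict h1) ((ρ (lev g⁻¹)).restrict h2)
      (by
        ext v
        exact e21 v)
      (by
        ext v
        exact e12 v)
  exact e.finrank_eq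

end Cfsg.Agent.Lib.Helper18.SLM
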