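import Mathlib
import Cfsg.Agent.Lib.Helper18.SLMDefs

set_option autoImplicit false

namespace Cfsg.Agent.Lib.Helper18.SLM

theorem toparith_wsum_succ (q m : ℕ) : wsum q (m + 1) = wsum q m + q ^ m := by
  unfold wsum
  rw [Finset.sum_range_succ]

theorem toparith_key (p m : ℕ) : (p + 1) * wsum (p + 2) m + 1 = (p + 2) ^ m := by
  induction m with
  | zero => simp [wsum]
  | succ m ih =>
    rw [toparith_wsum_succ, pow_succ, ← ih]
    ring

theorem toparith_div (p k : ℕ) :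
    ((p + 2) ^ (k + 2) - (p + 2)) / (p + 2 - 1) = (p + 2) * wsum (p + 2) (k + 1) := by
  have h1 : (p + 2) ^ (k + 2) = (p + 2) * wsum (p + 2) (k + 1) * (p + 1) + (p + 2) := by
    rw [pow_succ, ← toparith_key p (k + 1)]
    ring
  have h2 : p + 2 - 1 = p + 1 := by omega
  rw [h1, Nat.add_sub_cancel, h2, Nat.mul_div_cancel _ (Nat.succ_pos p)]

theorem arith_m2 (q k : ℕ) (hq : 2 ≤ q) : (q ^ (k + 2) - q) / (q - 1) ≤ 2 * (q ^ (k + 1) - 1) := by
  obtain ⟨p, rfl⟩ : ∃ p, q = p + 2 := ⟨q - 2, by omega⟩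
  rw [toparith_div, ← toparith_key p (k + 1), Nat.add_sub_cancel]
  nlinarith [Nat.zero_le (p * wsum (p + 2) (k + 1))]

theorem arith_m1 (q k : ℕ) (hq : 2 ≤ q) :
    (q ^ (k + 2) - q) / (q - 1) = wsum q (k + 1) + (q ^ (k + 1) - 1) := by
  obtain ⟨p, rfl⟩ : ∃ p, q = p + 2 := ⟨q - 2, by omega⟩
  rw [toparith_div, ← toparith_key p (k + 1), Nat.add_sub_cancel]
  ring

end Cfsg.Agent.Lib.Helper18.SLM
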