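import Mathlib
import Cfsg.Agent.Lib.Helper8.Sz1

set_option autoImplicit false

/-!
Minimal degree of a complex representation of a group containing the Borel subgroup of a
Suzuki group: abstract core (twisted families of operators and weight spaces).
-/

namespace Cfsg.Agent.Lib.Helper27.MinDeg

open Cfsg.Agent.Lib.Helper8.Sz
open Module

variable {F : Type*} [Field F] [Fintype F] {m : ℕ}

theorem th_fix (hF : Fintype.card F = 2 ^ (2 * m + 1)) {x : F} (h : th m x = x) :
    x = 0 ∨ x = 1 := by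
  have h1 : x ^ 2 = x := by rw [← th_th hF, h, h]
  have h2 : x * (x - 1) = 0 := by linear_combination h1
  rcases mul_eq_zero.mp h2 with h | h
  · exact Or.inl h
  · exact Or.inr (sub_eq_zero.mp h)

/-- the additive map `x ↦ x + θ x` -/
def Nadd (hF : Fintype.card F = 2 ^ (2 * m + 1)) : F →+ F where
  toFun x := x + th m x
  map_zero' := by rw [th_zero, add_zero]
  map_add' x y := by rw [th_add hF]; ring

theorem Nadd_apply (hF : Fintype.card F = 2 ^ (2 * m + 1)) (x : F) :
    Nadd hF x = x + th m x := rfl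

theorem mem_ker_Nadd (hF : Fintype.card F = 2 ^ (2 * m + 1)) (x : F) :
    x ∈ (Nadd hF).ker ↔ x = 0 ∨ x = 1 := by
  rw [AddMonoidHom.mem_ker, Nadd_apply]
  constructor
  · intro h
    apply th_fix hF
    have := add_self hF x
    linear_combination h - this
  · rintro (rfl | rfl)
    · rw [th_zero, add_zero]
    · rw [th_one]; exact add_self hF 1

theorem card_ker_Nadd (hF : Fintype.card F = 2 ^ (2 * m + 1)) :
    Nat.card (Nadd hF).ker = 2 := by
  rw [Nat.card_eq_two_iff]
  refine ⟨⟨0, (mem_ker_Nadd hF 0).mpr (Or.inl rfl)⟩, ⟨1, (mem_ker_Nadd hF 1).mpr (Or.inr rfl)⟩,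
    ?_, ?_⟩
  · intro h
    exact zero_ne_one (congrArg Subtype.val h)
  · ext ⟨x, hx⟩
    simp only [Set.mem_insert_iff, Set.mem_singleton_iff, Set.mem_univ, iff_true]
    rcases (mem_ker_Nadd hF x).mp hx with rfl | rfl
    · exact Or.inl rfl
    · exact Or.inr rfl

theorem index_range_Nadd (hF : Fintype.card F = 2 ^ (2 * m + 1)) :
    (Nadd hF).range.index = 2 := by
  have h1 := (Nadd hF).ker.card_mul_index
  rw [AddSubgroup.index_ker, card_ker_Nadd] at h1
  have h2 := (Nadd hF).range.card_mul_index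
  rw [← h1] at h2
  have hpos : 0 < Nat.card (Nadd hF).range := Nat.card_pos
  have h3 : Nat.card (Nadd hF).range * (Nadd hF).range.index = Nat.card (Nadd hF).range * 2 := by
    rw [h2, mul_comm]
  exact Nat.eq_of_mul_eq_mul_left hpos h3

/-- a sign character trivial on the image of `x ↦ x + θ x` is determined by one value -/
theorem exists_test (hF : Fintype.card F = 2 ^ (2 * m + 1)) :
    ∃ a₀ : F, ∀ μ : F → ℂ, (∀ x y, μ (x + y) = μ x * μ y) → (∀ x, μ (x + th m x) = 1) →
      μ a₀ = 1 → ∀ b, μ b = 1 := by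
  obtain ⟨a₀, ha₀⟩ := AddSubgroup.index_eq_two_iff.mp (index_range_Nadd hF)
  refine ⟨a₀, fun μ hadd htriv h0 b => ?_⟩
  have hr : ∀ y ∈ (Nadd hF).range, μ y = 1 := by
    rintro y ⟨x, rfl⟩
    exact htriv x
  rcases ha₀ b with ⟨h1, -⟩ | ⟨h1, -⟩
  · have := hr _ h1
    rw [hadd, h0, mul_one] at this
    exact this
  · exact hr _ h1

theorem mul_th_inj (hF : Fintype.card F = 2 ^ (2 * m + 1)) {r₁ r₂ : F} (h1 : r₁ ≠ 0)
    (h2 : r₂ ≠ 0) (h : r₁ * th m r₁ = r₂ * th m r₂) : r₁ = r₂ := by
  have ht2 : th m r₂ ≠ 0 := th_ne_zero h2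
  have e : th m (r₁ / r₂) = (r₁ / r₂)⁻¹ := by
    rw [th_div, inv_div]
    field_simp
    linear_combination h
  have e2 : th m (th m (r₁ / r₂)) = r₁ / r₂ := by
    rw [e, th_inv, e, inv_inv]
  rw [th_th hF] at e2
  have hne : r₁ / r₂ ≠ 0 := div_ne_zero h1 h2
  have e3 : r₁ / r₂ = 1 := by
    have : (r₁ / r₂) * (r₁ / r₂ - 1) = 0 := by linear_combination e2
    rcases mul_eq_zero.mp this with h | h
    · exact absurd h hne
    · exact sub_eq_zero.mp h
  field_simp at e3
  exact e3

/-- sign characters: two values with equal squares are equal or opposite -/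
theorem sign_cases {x y : ℂ} (hx : x * x = 1) (hy : y * y = 1) (hne : x ≠ y) : x = -y := by
  have h3 : (x - y) * (x + y) = 0 := by linear_combination hx - hy
  rcases mul_eq_zero.mp h3 with h | h
  · exact absurd (sub_eq_zero.mp h) hne
  · linear_combination h

section twisted

variable {W : Type*} [AddCommGroup W] [Module ℂ W] [FiniteDimensional ℂ W]

/-- the radical of the commutator pairing attached to a non-trivial sign character has at most
one non-zero element -/
theorem radical_unique (hF : Fintype.card F = 2 ^ (2 * m + 1)) (χ : F → ℂ)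
    (hadd : ∀ x y, χ (x + y) = χ x * χ y) (hsq : ∀ x, χ x * χ x = 1) (hnt : ∃ b, χ b ≠ 1)
    {r₁ r₂ : F} (hr₁ : ∀ a', χ (th m r₁ * a') = χ (th m a' * r₁))
    (hr₂ : ∀ a', χ (th m r₂ * a') = χ (th m a' * r₂)) (h1 : r₁ ≠ 0) (h2 : r₂ ≠ 0) :
    r₁ = r₂ := by
  have h2F : (2 : F) = 0 := two_eq_zero hF
  obtain ⟨b₁, hb₁⟩ := hnt
  obtain ⟨a₀, ha₀⟩ := exists_test hF
  -- the characters `y ↦ χ (w y)`
  have hμadd : ∀ w : F, ∀ x y, χ (w * (x + y)) = χ (w * x) * χ (w * y) := by
    intro w x y
    rw [mul_add, hadd]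
  have htriv : ∀ r : F, (∀ a', χ (th m r * a') = χ (th m a' * r)) →
      ∀ x, χ (r * th m r * (x + th m x)) = 1 := by
    intro r hr x
    have e := hr (r * x)
    rw [th_mul] at e
    have e1 : r * th m r * (x + th m x) = th m r * (r * x) + th m r * th m x * r := by ring
    rw [e1, hadd, ← e]
    exact hsq _
  have hneg : ∀ r : F, (∀ a', χ (th m r * a') = χ (th m a' * r)) → r ≠ 0 →
      χ (r * th m r * a₀) = -1 := by
    intro r hr hr0
    have hw : r * th m r ≠ 0 := mul_ne_zero hr0 (th_ne_zero hr0)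
    have hne : χ (r * th m r * a₀) ≠ 1 := by
      intro h
      have h3 := ha₀ (fun y => χ (r * th m r * y)) (hμadd _) (htriv r hr) h (b₁ / (r * th m r))
      apply hb₁
      rw [← h3]
      congr 1
      exact (mul_div_cancel₀ b₁ hw).symm
    have := sign_cases (hsq _) (one_mul (1 : ℂ)) hne
    exact this
  have hν : ∀ b, χ ((r₁ * th m r₁ + r₂ * th m r₂) * b) = 1 := by
    apply ha₀ (fun y => χ ((r₁ * th m r₁ + r₂ * th m r₂) * y)) (hμadd _)
    · intro x
      show χ ((r₁ * th m r₁ + r₂ * th m r₂) * (x + th m x)) = 1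
      rw [add_mul, hadd, htriv r₁ hr₁, htriv r₂ hr₂, mul_one]
    · show χ ((r₁ * th m r₁ + r₂ * th m r₂) * a₀) = 1
      rw [add_mul, hadd, hneg r₁ hr₁ h1, hneg r₂ hr₂ h2]
      norm_num
  have hw : r₁ * th m r₁ + r₂ * th m r₂ = 0 := by
    by_contra hw
    apply hb₁
    rw [← hν (b₁ / (r₁ * th m r₁ + r₂ * th m r₂))]
    congr 1
    exact (mul_div_cancel₀ b₁ hw).symm
  apply mul_th_inj hF h1 h2
  have := add_self hF (r₂ * th m r₂)
  linear_combination hw - this

/-- a twisted family of operators indexed by the field, with twist a non-trivial sign character,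
forces dimension at least `2 ^ m` -/
theorem twisted_bound (hF : Fintype.card F = 2 ^ (2 * m + 1)) (hW : 0 < finrank ℂ W)
    (χ : F → ℂ) (hadd : ∀ x y, χ (x + y) = χ x * χ y) (hsq : ∀ x, χ x * χ x = 1)
    (hnt : ∃ b, χ b ≠ 1) (Y : F → Module.End ℂ W) (hY0 : Y 0 = 1)
    (hY : ∀ a a', Y a * Y a' = χ (th m a * a') • Y (a + a')) : 2 ^ m ≤ finrank ℂ W := by
  classical
  have hχne : ∀ x, χ x ≠ 0 := by
    intro x h
    have := hsq x
    rw [h] at this
    simp at this
  -- traces vanish outside the radical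
  have htr : ∀ a a', χ (th m a * a') ≠ χ (th m a' * a) → LinearMap.trace ℂ W (Y a) = 0 := by
    intro a a' hne
    have h1 : χ (th m a * a') = -χ (th m a' * a) := sign_cases (hsq _) (hsq _) hne
    have h2 : Y a * Y a' = -(Y a' * Y a) := by
      rw [hY, hY, h1, add_comm a' a, neg_smul]
    have h3 : Y a' * Y a' = χ (th m a' * a') • (1 : Module.End ℂ W) := by
      rw [hY, add_self hF, hY0]
    have e1 : LinearMap.trace ℂ W (Y a * (Y a' * Y a'))
        = χ (th m a' * a') * LinearMap.trace ℂ W (Y a) := by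
      rw [h3, mul_smul_comm, mul_one, map_smul, smul_eq_mul]
    have e2 : LinearMap.trace ℂ W (Y a * (Y a' * Y a'))
        = -LinearMap.trace ℂ W (Y a * (Y a' * Y a')) := by
      calc LinearMap.trace ℂ W (Y a * (Y a' * Y a'))
          = LinearMap.trace ℂ W (-(Y a' * Y a) * Y a') := by rw [← mul_assoc, h2]
        _ = -LinearMap.trace ℂ W (Y a' * (Y a * Y a')) := by rw [neg_mul, map_neg, mul_assoc]
        _ = -LinearMap.trace ℂ W ((Y a * Y a') * Y a') := by rw [LinearMap.trace_mul_comm]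
        _ = -LinearMap.trace ℂ W (Y a * (Y a' * Y a')) := by rw [mul_assoc]
    have e3 : LinearMap.trace ℂ W (Y a * (Y a' * Y a')) = 0 := by linear_combination (1 / 2 : ℂ) * e2
    rw [e1] at e3
    exact (mul_eq_zero.mp e3).resolve_left (hχne _)
  -- the radical is contained in `{0, r₀}`
  obtain ⟨r₀, hr₀, hrad⟩ : ∃ r₀ : F, r₀ ≠ 0 ∧
      ∀ r, (∀ a', χ (th m r * a') = χ (th m a' * r)) → r = 0 ∨ r = r₀ := by
    by_cases h : ∃ r : F, r ≠ 0 ∧ ∀ a', χ (th m r * a') = χ (th m a' * r)
    · obtain ⟨r₀, hr₀, hR⟩ := h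
      refine ⟨r₀, hr₀, fun r hr => ?_⟩
      by_cases hr0 : r = 0
      · exact Or.inl hr0
      · exact Or.inr (radical_unique hF χ hadd hsq hnt hr hR hr0 hr₀)
    · refine ⟨1, one_ne_zero, fun r hr => ?_⟩
      left
      by_contra hr0
      exact h ⟨r, hr0, hr⟩
  obtain ⟨b₁, hb₁⟩ := hnt
  set u : F := b₁ / r₀ with hu
  have hur : u * r₀ = b₁ := by rw [hu]; field_simp
  let S : Finset F := Finset.univ.filter (fun a => χ (u * a) = 1)
  have hS : ∀ a, a ∈ S ↔ χ (u * a) = 1 := fun a => by simp [S]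
  -- `S` has at least half of the elements
  have hcard : 2 ^ (2 * m) ≤ S.card := by
    have h1 : (Finset.univ.filter (fun a : F => ¬ χ (u * a) = 1)).card ≤ S.card := by
      apply Finset.card_le_card_of_injOn (fun a => a + r₀)
      · intro a ha
        have ha' : ¬ χ (u * a) = 1 := by simpa using ha
        have h3 : χ (u * a) = -1 := sign_cases (hsq _) (one_mul (1 : ℂ)) ha'
        have h4 : χ b₁ = -1 := sign_cases (hsq _) (one_mul (1 : ℂ)) hb₁
        show a + r₀ ∈ (S : Set F)
        rw [Finset.mem_coe, hS, mul_add, hadd, hur, h3, h4]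
        norm_num
      · intro a _ a' _ h
        exact add_right_cancel h
    have h2 := Finset.card_filter_add_card_filter_not (s := (Finset.univ : Finset F))
      (fun a : F => χ (u * a) = 1)
    rw [Finset.card_univ, hF] at h2
    have h3 : 2 ^ (2 * m + 1) = 2 * 2 ^ (2 * m) := by ring
    have h4 : (Finset.univ.filter (fun a : F => χ (u * a) = 1)).card = S.card := rfl
    omega
  -- linear independence
  have hli : LinearIndependent ℂ (fun a : S => Y a.1) := by
    rw [Fintype.linearIndependent_iff]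
    intro g hg a₁
    have h1 := congrArg (fun A => LinearMap.trace ℂ W (A * Y a₁.1)) hg
    simp only [Finset.sum_mul, smul_mul_assoc, map_sum, map_smul, zero_mul, map_zero] at h1
    rw [Finset.sum_eq_single a₁] at h1
    · have h3 : Y a₁.1 * Y a₁.1 = χ (th m a₁.1 * a₁.1) • (1 : Module.End ℂ W) := by
        rw [hY, add_self hF, hY0]
      rw [h3, map_smul, LinearMap.trace_one, smul_eq_mul, smul_eq_mul] at h1
      have hd : ((finrank ℂ W : ℕ) : ℂ) ≠ 0 := by
        exact_mod_cast hW.ne'
      rcases mul_eq_zero.mp h1 with h | h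
      · exact h
      · exact absurd h (mul_ne_zero (hχne _) hd)
    · intro a _ hne
      have hne' : a.1 ≠ a₁.1 := fun h => hne (Subtype.ext h)
      have hsum0 : a.1 + a₁.1 ≠ 0 := by
        intro h
        apply hne'
        have := add_self hF a₁.1
        linear_combination h - this
      have hsumr : a.1 + a₁.1 ≠ r₀ := by
        intro h
        have h5 : χ (u * (a.1 + a₁.1)) = 1 := by
          rw [mul_add, hadd, (hS _).mp a.2, (hS _).mp a₁.2, mul_one]
        rw [h, hur] at h5
        exact hb₁ h5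
      have hnr : ¬ ∀ a', χ (th m (a.1 + a₁.1) * a') = χ (th m a' * (a.1 + a₁.1)) := by
        intro h
        rcases hrad _ h with h | h
        · exact hsum0 h
        · exact hsumr h
      push Not at hnr
      obtain ⟨a', ha'⟩ := hnr
      rw [hY, map_smul, htr _ a' ha', smul_zero, smul_zero]
    · intro h
      exact absurd (Finset.mem_univ _) h
  have h5 := hli.fintype_card_le_finrank
  rw [Fintype.card_coe, Module.finrank_linearMap] at h5
  have h6 : (2 ^ m) ^ 2 ≤ (finrank ℂ W) ^ 2 := by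
    calc (2 ^ m) ^ 2 = 2 ^ (2 * m) := by rw [← pow_mul, mul_comm]
      _ ≤ S.card := hcard
      _ ≤ finrank ℂ W * finrank ℂ W := h5
      _ = (finrank ℂ W) ^ 2 := (sq _).symm
  exact (Nat.pow_le_pow_iff_left (by norm_num)).mp h6

end twisted

theorem uu_inj (hF : Fintype.card F = 2 ^ (2 * m + 1)) {s s' : F} (hs : s ≠ 0) (hs' : s' ≠ 0)
    (h : th m s * s ^ 2 = th m s' * s' ^ 2) : s = s' := by
  have ht' : th m s' ≠ 0 := th_ne_zero hs'
  have e : th m (s / s') * (s / s') ^ 2 = 1 := by
    rw [th_div]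
    field_simp
    linear_combination h
  have hne : s / s' ≠ 0 := div_ne_zero hs hs'
  have hnet : th m (s / s') ≠ 0 := th_ne_zero hne
  have e2 : th m (th m (s / s')) * th m (s / s') ^ 2 = 1 := by
    rw [← th_pow, ← th_mul, e, th_one]
  rw [th_th hF] at e2
  -- t² · (th t)² = 1 and th t · t² = 1, so th t = 1
  have e3 : th m (s / s') = 1 := by
    have : th m (s / s') * (th m (s / s') * (s / s') ^ 2) = 1 := by linear_combination e2
    rw [e, mul_one] at this
    exact this
  have e4 : (s / s') ^ 2 = 1 := by rw [e3, one_mul] at e; exact e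
  have e5 := sq_eq_one hF e4
  field_simp at e5
  exact e5

section rep

variable {G : Type*} [Group G]
variable {V : Type*} [AddCommGroup V] [Module ℂ V] [FiniteDimensional ℂ V]

/-- the Landazuri–Seitz type bound: a complex representation of a group containing a copy of the
Borel subgroup `{T a b} ⋊ {H s}` of a Suzuki group, faithful on the centre `{T 0 b}`, has degree
at least `2 ^ m (q - 1)` -/
theorem min_degree (hF : Fintype.card F = 2 ^ (2 * m + 1))
    (T : F → F → G) (H : Fˣ → G)
    (hT : ∀ a b a' b', T a b * T a' b' = T (a + a') (b + b' + th m a * a'))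
    (hH : ∀ (s : Fˣ) a b,
      H s * T a b = T (th m (s : F) * a) (th m (s : F) * (s : F) ^ 2 * b) * H s)
    (ρ : Representation ℂ G V) (hρ : ∀ b, ρ (T 0 b) = 1 → b = 0) :
    2 ^ m * (2 ^ (2 * m + 1) - 1) ≤ finrank ℂ V := by
  classical
  have hT0 : T 0 0 = 1 := by
    have h := hT 0 0 0 0
    rw [th_zero, zero_mul, add_zero, add_zero] at h
    exact mul_left_cancel (a := T 0 0) (by rw [h, mul_one])
  let Z : F → Module.End ℂ V := fun b => ρ (T 0 b)
  let X : F → Module.End ℂ V := fun a => ρ (T a 0)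
  let D : Fˣ → Module.End ℂ V := fun s => ρ (H s)
  have hZmul : ∀ b b', Z b * Z b' = Z (b + b') := by
    intro b b'
    show ρ (T 0 b) * ρ (T 0 b') = ρ (T 0 (b + b'))
    rw [← map_mul, hT, th_zero, zero_mul, add_zero, add_zero]
  have hZ0 : Z 0 = 1 := by
    show ρ (T 0 0) = 1
    rw [hT0, map_one]
  have hZsq : ∀ b, Z b * Z b = 1 := by
    intro b
    rw [hZmul, add_self hF, hZ0]
  have hZcomm : ∀ b b', Commute (Z b) (Z b') := by
    intro b b'
    show Z b * Z b' = Z b' * Z b
    rw [hZmul, hZmul, add_comm]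
  have hXZ : ∀ a b, X a * Z b = ρ (T a b) := by
    intro a b
    show ρ (T a 0) * ρ (T 0 b) = _
    rw [← map_mul, hT, add_zero, zero_add, mul_zero, add_zero]
  have hZX : ∀ a b, Z b * X a = ρ (T a b) := by
    intro a b
    show ρ (T 0 b) * ρ (T a 0) = _
    rw [← map_mul, hT, th_zero, zero_add, zero_mul, add_zero, add_zero]
  have hXX : ∀ a a', X a * X a' = Z (th m a * a') * X (a + a') := by
    intro a a'
    rw [hZX]
    show ρ (T a 0) * ρ (T a' 0) = _
    rw [← map_mul, hT, add_zero, zero_add]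
  have hDZ : ∀ (s : Fˣ) b, D s * Z b = Z (th m (s : F) * (s : F) ^ 2 * b) * D s := by
    intro s b
    show ρ (H s) * ρ (T 0 b) = ρ (T 0 _) * ρ (H s)
    rw [← map_mul, ← map_mul, hH, mul_zero]
  have hDinj : ∀ s, Function.Injective (D s) := by
    intro s
    have h1 : ρ (H s)⁻¹ * ρ (H s) = 1 := by rw [← map_mul, inv_mul_cancel, map_one]
    apply Function.LeftInverse.injective (g := ρ (H s)⁻¹)
    intro v
    exact LinearMap.congr_fun h1 v
  -- joint eigenspaces
  let E : (F → ℂ) → Submodule ℂ V := fun χ => ⨅ b, (Z b).eigenspace (χ b)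
  have hE : ∀ χ v, v ∈ E χ ↔ ∀ b, Z b v = χ b • v := by
    intro χ v
    simp [E, Submodule.mem_iInf]
  have hss : ∀ b, (Z b).IsFinitelySemisimple := by
    intro b
    apply Module.End.IsSemisimple.isFinitelySemisimple
    apply Module.End.isSemisimple_of_squarefree_aeval_eq_zero
      (p := Polynomial.X ^ 2 - Polynomial.C (1 : ℂ))
    · exact (Polynomial.separable_X_pow_sub_C (1 : ℂ) (by norm_num) one_ne_zero).squarefree
    · simp [pow_two, hZsq]
  have hEgen : ∀ χ : F → ℂ, (⨅ b, (Z b).maxGenEigenspace (χ b)) = E χ := by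
    intro χ
    simp only [E, (hss _).maxGenEigenspace_eq_eigenspace]
  have hind : iSupIndep E := by
    have := Module.End.independent_iInf_maxGenEigenspace_of_forall_mapsTo Z
      (fun i j φ => Module.End.mapsTo_maxGenEigenspace_of_comm (hZcomm j i) φ)
    simpa only [hEgen] using this
  have htop : ⨆ χ, E χ = ⊤ := by
    have := Module.End.iSup_iInf_maxGenEigenspace_eq_top_of_iSup_maxGenEigenspace_eq_top_of_commute
      Z (fun i j _ => hZcomm i j) (fun i => Module.End.iSup_maxGenEigenspace_eq_top (Z i))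
    simpa only [hEgen] using this
  -- a non-trivial weight
  obtain ⟨χ, hχbot, b₁, hb₁⟩ : ∃ χ : F → ℂ, E χ ≠ ⊥ ∧ ∃ b, χ b ≠ 1 := by
    by_contra hcon
    push Not at hcon
    have h1 : ∀ χ, E χ ≤ E (fun _ => 1) := by
      intro χ
      by_cases h : E χ = ⊥
      · rw [h]; exact bot_le
      · have : χ = fun _ => 1 := funext (hcon χ h)
        rw [this]
    have h2 : E (fun _ => 1) = ⊤ := by
      rw [eq_top_iff, ← htop]
      exact iSup_le h1
    have h3 : Z 1 = 1 := by
      apply LinearMap.ext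
      intro v
      have hv : v ∈ E (fun _ => 1) := by rw [h2]; trivial
      have := (hE _ v).mp hv 1
      simpa using this
    exact one_ne_zero (hρ 1 h3)
  obtain ⟨v₀, hv₀, hv₀ne⟩ := (Submodule.ne_bot_iff _).mp hχbot
  have hv₀' := (hE χ v₀).mp hv₀
  have hadd : ∀ x y, χ (x + y) = χ x * χ y := by
    intro x y
    have h1 : Z (x + y) v₀ = (χ x * χ y) • v₀ := by
      rw [← hZmul, Module.End.mul_apply, hv₀', map_smul, hv₀', smul_smul, mul_comm]
    rw [hv₀'] at h1
    exact smul_left_injective ℂ hv₀ne h1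
  have hsq : ∀ x, χ x * χ x = 1 := by
    intro x
    have h1 : Z x (Z x v₀) = v₀ := by
      rw [← Module.End.mul_apply, hZsq]
      rfl
    rw [hv₀', map_smul, hv₀', smul_smul] at h1
    have h2 : (χ x * χ x) • v₀ = (1 : ℂ) • v₀ := by rw [h1, one_smul]
    exact smul_left_injective ℂ hv₀ne h2
  -- the torus permutes the weights
  let uu : Fˣ → F := fun s => th m (s : F) * (s : F) ^ 2
  have huu : ∀ s, uu s ≠ 0 := fun s =>
    mul_ne_zero (th_ne_zero s.ne_zero) (pow_ne_zero 2 s.ne_zero)
  let χs : Fˣ → (F → ℂ) := fun s b => χ ((uu s)⁻¹ * b)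
  have hmap : ∀ s, (E χ).map (D s) ≤ E (χs s) := by
    rintro s _ ⟨v, hv, rfl⟩
    rw [hE]
    intro b
    have e : b = uu s * ((uu s)⁻¹ * b) := by
      rw [← mul_assoc, mul_inv_cancel₀ (huu s), one_mul]
    have h1 : Z b (D s v) = D s (Z ((uu s)⁻¹ * b) v) := by
      conv_lhs => rw [e]
      rw [← Module.End.mul_apply, ← Module.End.mul_apply, ← hDZ]
    rw [h1, (hE χ v).mp hv, map_smul]
  have hdim : ∀ s, finrank ℂ (E χ) ≤ finrank ℂ (E (χs s)) := by
    intro s
    calc finrank ℂ (E χ) = finrank ℂ ((E χ).map (D s)) :=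
          LinearEquiv.finrank_eq (Submodule.equivMapOfInjective (D s) (hDinj s) (E χ))
      _ ≤ _ := Submodule.finrank_mono (hmap s)
  have hinj : Function.Injective χs := by
    intro s s' h
    by_contra hne
    have h1 : uu s ≠ uu s' := by
      intro h2
      exact hne (Units.ext (uu_inj hF s.ne_zero s'.ne_zero h2))
    have hc : (uu s)⁻¹ + (uu s')⁻¹ ≠ 0 := by
      intro h3
      apply h1
      have h4 : (uu s)⁻¹ = (uu s')⁻¹ := by
        have := add_self hF (uu s')⁻¹
        linear_combination h3 - this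
      exact inv_injective h4
    apply hb₁
    have h5 := congrFun h (b₁ / ((uu s)⁻¹ + (uu s')⁻¹))
    have h6 : b₁ = (uu s)⁻¹ * (b₁ / ((uu s)⁻¹ + (uu s')⁻¹))
        + (uu s')⁻¹ * (b₁ / ((uu s)⁻¹ + (uu s')⁻¹)) := by
      rw [← add_mul, mul_div_cancel₀ b₁ hc]
    rw [h6, hadd]
    show χs s _ * χs s' _ = 1
    rw [h5]
    exact hsq _
  -- dimension count
  have hind' : iSupIndep (fun s : Fˣ => E (χs s)) := hind.comp hinj
  have hsum : ∑ s : Fˣ, finrank ℂ (E (χs s)) ≤ finrank ℂ V := by
    have hinjmap := hind'.dfinsupp_lsum_injective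
    have h1 := LinearMap.finrank_le_finrank_of_injective hinjmap
    rw [← Module.finrank_directSum]
    exact h1
  -- the twisted family on a weight space
  have hXmaps : ∀ a, ∀ v ∈ E χ, X a v ∈ E χ := by
    intro a v hv
    rw [hE] at hv ⊢
    intro b
    have h1 : Z b (X a v) = X a (Z b v) := by
      rw [← Module.End.mul_apply, ← Module.End.mul_apply, hZX, hXZ]
    rw [h1, hv b, map_smul]
  have hd : 2 ^ m ≤ finrank ℂ (E χ) := by
    let Y : F → Module.End ℂ (E χ) := fun a => (X a).restrict (hXmaps a)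
    refine twisted_bound hF ?_ χ hadd hsq ⟨b₁, hb₁⟩ Y ?_ ?_
    · exact Submodule.one_le_finrank_iff.mpr hχbot
    · apply LinearMap.ext
      rintro ⟨v, hv⟩
      apply Subtype.ext
      show X 0 v = v
      have : X 0 = 1 := hZ0
      rw [this]
      rfl
    · intro a a'
      apply LinearMap.ext
      rintro ⟨v, hv⟩
      apply Subtype.ext
      show X a (X a' v) = χ (th m a * a') • X (a + a') v
      have h1 : X a (X a' v) = Z (th m a * a') (X (a + a') v) := by
        rw [← Module.End.mul_apply, hXX]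
        rfl
      rw [h1, (hE χ _).mp (hXmaps (a + a') v hv)]
  calc 2 ^ m * (2 ^ (2 * m + 1) - 1) = ∑ _s : Fˣ, 2 ^ m := by
        rw [Finset.sum_const, Finset.card_univ, Fintype.card_units, hF, smul_eq_mul, mul_comm]
    _ ≤ ∑ s : Fˣ, finrank ℂ (E (χs s)) := Finset.sum_le_sum (fun s _ => hd.trans (hdim s))
    _ ≤ finrank ℂ V := hsum

end rep

end Cfsg.Agent.Lib.Helper27.MinDeg
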